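import Cfsg.Agent.H748.SK.HNPure
import Cfsg.Agent.H738.SK.Transport

/-!
# S3010, the row `HN` (helper748, task 3738)

* 2A: `z` inverts `t` of order 5, `O_2(C(z) ∩ C(t)) = 1` (`C_{HN}(z, t) = U_3(5)`; no outer element commutes with `t` and an
  element of order 7 of `U`);
* 2B: `d` inverts `y` of order 11; the involutions of `V` commuting with `y` are of class 2A: outer involutions
  do not commute with `y`.
-/

set_option autoImplicit false
set_option linter.style.haveILetI false

universe u

namespace Cfsg.Agent.H748.SK.HNRow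

open Subgroup Cfsg.Agent.H282.SK Cfsg.Agent.H738.SK
open Cfsg.Agent.HN Cfsg.Agent.HN.Pres Cfsg.Agent.HN.P1408 Cfsg.Agent.HN.H0Basic
open Cfsg.Agent.KFacts.HN (emb finite_HN)

theorem main {G : Type u} [Group G] [Finite G] {V K : Subgroup G} (h : Cx V K) (e : K ≃* Cfsg.Spor.HN)
    (hi : K.index ≤ 2) : False := by
  have hfin : Finite Cfsg.Spor.HN := finite_HN
  have hn := h.norm
  obtain ⟨φ, hφ, hφK, hφg⟩ := h.exists_toAut e
  obtain ⟨j, hj⟩ : ∃ j : Cfsg.Spor.HN →* G, ∀ x, j x = ((e.symm x : K) : G) :=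
    ⟨K.subtype.comp e.symm.toMonoidHom, fun _ => rfl⟩
  have hjK : ∀ x, j x ∈ K := fun x => by rw [hj]; exact (e.symm x).2
  have hjinj : Function.Injective j := by
    intro a b hab
    rw [hj, hj] at hab
    exact e.symm.injective (Subtype.ext hab)
  have hjs : ∀ g ∈ K, ∃ x, g = j x := fun g hg => ⟨e ⟨g, hg⟩, by rw [hj, MulEquiv.symm_apply_apply]⟩
  have hφj : ∀ x, φ (j x) = MulAut.conj x := by
    intro x
    rw [hj, hφK, MulEquiv.apply_symm_apply]
  have hφa : ∀ g x, g * j x * g⁻¹ = j (φ g x) := by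
    intro g x
    obtain ⟨hgk, hg⟩ := hφg g (e.symm x)
    rw [MulEquiv.apply_symm_apply] at hg
    rw [hg, hj, hj, MulEquiv.symm_apply_apply]
  have hcomm : ∀ g x, g * j x = j x * g → φ g x = x := by
    intro g x hgx
    apply hjinj
    rw [← hφa, hgx, mul_inv_cancel_right]
  have hout : ∀ g, g ∉ K → ∀ x, φ g ≠ MulAut.conj x := by
    intro g hg x hx
    rw [← hφj] at hx
    rw [hφ hx] at hg
    exact hg (hjK x)
  have hjo : ∀ x, orderOf (j x) = orderOf x := fun x => orderOf_injective j hjinj x
  -- the class 2A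
  have hA : Dead K (j z) := by
    refine Dead.of_O2 (x := j Pres.ht) ?_ ?_ ?_ ?_
    · intro h1
      exact z_ne (hjinj (h1.trans (map_one j).symm))
    · rw [hjo, orderOf_ht]
      decide
    · rw [← map_mul, ← map_inv, ← map_mul, z_ht, map_inv]
    · obtain ⟨C, hC⟩ : ∃ C : Subgroup G, C = centralizer ({j z} : Set G) ⊓ centralizer ({j Pres.ht} : Set G) :=
        ⟨_, rfl⟩
      rw [← hC]
      have hmem : ∀ g, g ∈ C ↔ g * j z = j z * g ∧ g * j Pres.ht = j Pres.ht * g := by
        intro g
        rw [hC, mem_inf, mem_centralizer_singleton_iff, mem_centralizer_singleton_iff]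
      have hU : ∀ u ∈ U, j (NormalH.ψ u) ∈ C := by
        intro u hu
        rw [hmem, ← map_mul, ← map_mul, ← map_mul, ← map_mul, z_comm, comm_U hu]
        exact ⟨rfl, rfl⟩
      have hR : (O2 C).comap j = ⊥ := by
        apply eq_bot
        · exact (isPGroup_O2 C).comap_of_injective j hjinj
        · intro r hr
          have h1 := ((hmem _).1 (O2_le C hr)).1
          rw [← map_mul, ← map_mul] at h1
          exact hjinj h1
        · intro r hr
          have h1 := ((hmem _).1 (O2_le C hr)).2
          rw [← map_mul, ← map_mul] at h1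
          exact hjinj h1
        · intro u hu r hr
          rw [mem_comap] at hr ⊢
          rw [map_mul, map_mul, map_inv]
          exact conj_mem_O2 (hU u hu) hr
      rw [eq_bot_iff]
      intro w hw
      rw [mem_bot]
      have hK1 : ∀ g ∈ O2 C, g ∈ K → g = 1 := by
        intro g hg hgK
        obtain ⟨x, rfl⟩ := hjs g hgK
        have h1 : x ∈ (O2 C).comap j := hg
        rw [hR, mem_bot] at h1
        rw [h1, map_one]
      by_contra hw1
      have hwK : w ∉ K := fun hwK => hw1 (hK1 w hw hwK)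
      obtain ⟨f, hfU, hf⟩ := exists_seven
      have h1 : w * j (NormalH.ψ f) * w⁻¹ * (j (NormalH.ψ f))⁻¹ = 1 := by
        apply hK1
        · have e1 : w * j (NormalH.ψ f) * w⁻¹ * (j (NormalH.ψ f))⁻¹ =
              w * (j (NormalH.ψ f) * w⁻¹ * (j (NormalH.ψ f))⁻¹) := by group
          rw [e1]
          exact mul_mem hw (conj_mem_O2 (hU f hfU) (inv_mem hw))
        · exact mul_mem (hn.conj_mem _ (hjK _) w) (inv_mem (hjK _))
      have h2 : w * j (NormalH.ψ f) = j (NormalH.ψ f) * w := by
        rw [mul_inv_eq_one, mul_inv_eq_iff_eq_mul] at h1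
        exact h1
      have h3 := ((hmem _).1 (O2_le C hw)).2
      exact no_outer (hout w hwK) (hcomm _ _ h3) hf (hcomm _ _ h2)
  -- the class 2B
  have hB : Dead K (j (NormalH.ψ Syl.d)) := by
    intro V' h' hd
    have hinv : j (NormalH.ψ Syl.d) * j (NormalH.ψ y0) * (j (NormalH.ψ Syl.d))⁻¹ = (j (NormalH.ψ y0))⁻¹ := by
      rw [← map_mul, ← map_inv, ← map_mul, ← map_mul, ← map_inv, ← map_mul, d_y0, map_inv, map_inv]
    have hodd : Odd (orderOf (j (NormalH.ψ y0))) := by
      rw [hjo, orderOf_injective _ emb.inj, orderOf_y0]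
      decide
    obtain ⟨w, hw, hw1, hc⟩ := h'.t0 hd hodd hinv
    by_cases hwK : w ∈ K
    · obtain ⟨x, rfl⟩ := hjs w hwK
      have hx2 : orderOf x = 2 := by
        refine orderOf_eq_prime ?_ ?_
        · apply hjinj
          rw [map_pow, map_one, pow_two, h'.sq hw]
        · intro hx
          exact hw1 (by rw [hx, map_one])
      have hxy : NormalH.ψ y0 * x = x * NormalH.ψ y0 := by
        apply hjinj
        rw [map_mul, map_mul]
        exact hc.symm
      have h11 : 11 ∣ Nat.card (centralizer ({x} : Set Cfsg.Spor.HN)) := by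
        have h1 := Subgroup.orderOf_dvd_natCard _ (mem_centralizer_singleton_iff.2 hxy)
        rwa [orderOf_injective _ emb.inj, orderOf_y0] at h1
      rcases Cfsg.Agent.SigZeroHN.card_centralizer_cases hx2 with ⟨h1, -⟩ | ⟨-, h1⟩
      · exact hA.of_isConj (j.map_isConj h1.symm) V' h' hw
      · rw [h1] at h11
        revert h11
        decide
    · refine no_outer_eleven (hout w hwK) ?_ orderOf_y0 (hcomm _ _ hc)
      rw [← map_mul, h'.sq hw, map_one]
  refine false_of_dead_inner h hi fun t htK htt ht1 => ?_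
  obtain ⟨x, rfl⟩ := hjs t htK
  have hx2 : orderOf x = 2 := by
    refine orderOf_eq_prime ?_ ?_
    · apply hjinj
      rw [map_pow, map_one, pow_two, htt]
    · intro hx
      exact ht1 (by rw [hx, map_one])
  rcases KFacts.HN.Classes.inv_class hx2 with h1 | h1
  · exact hA.of_isConj (j.map_isConj h1.symm)
  · exact hB.of_isConj (j.map_isConj (isConj_d.trans h1.symm))

/-- **S3010, the row `HN`.** -/
theorem dead : Cfsg.Agent.H282.SK.DeadS.{u} (fun K _ => Cfsg.Spor.IsoHN K) := by
  have hfin : Finite Cfsg.Spor.HN := finite_HN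
  have hindex : (MulAut.conj (G := Cfsg.Spor.HN)).range.index ≤ 2 := by
    rcases KFacts.HN.out_index with h | h <;> rw [h]
    norm_num
  intro G _ _ V K h hK
  obtain ⟨e⟩ := hK
  rcases exists_of_out2 h e hindex with ⟨h1, -⟩ | ⟨h1, -⟩
  · exact main h e (by rw [h1, Subgroup.index_top]; norm_num)
  · exact main h e h1.le

end Cfsg.Agent.H748.SK.HNRow
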