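import Cfsg.Agent.H748.SK.Odd
import Cfsg.Agent.H859.CentC
import Cfsg.Agent.H859.ClassEleven
import Cfsg.Agent.S5569
import Cfsg.Agent.H856.AutM22
import Cfsg.Agent.H337.JankoOfIso
import Cfsg.Agent.KFacts.J4.SheetJ4

/-!
# S3010, the row `J4` (helper748, task 3725)

`p = 11` in the argument of `H465.SK.OddCore`: `Q = U = 11 ^ (1 + 2)` for the elements conjugate to the generator `c` of
its centre, `Q = 11 ^ 2` for the others (`|C(x)| = 242`); the orders of the involution centralisers are divisible by 11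
and not by `11 ^ 2`.
-/

set_option autoImplicit false
set_option linter.style.haveILetI false

universe u

namespace Cfsg.Agent.H748.SK.J4

open Cfsg Subgroup Cfsg.Agent.H465.SK Cfsg.Agent.H282.SK Cfsg.Agent.H859

theorem fact_eleven : Fact (Nat.Prime 11) := ⟨by norm_num⟩

/-! ### the involution centralizers (copied from `H877.IMJ4`) -/

theorem card_cent_z {G : Type*} [Group G] [Finite G] {z : G} (h : IsOfJankoFourTypeAt z) :
    Nat.card (centralizer ({z} : Set G)) = 21799895040 := by
  obtain ⟨P, -, -, hQ, -, ⟨N, -, hNC, -, hN, ⟨hn, ⟨e⟩⟩, -⟩, -⟩ := h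
  rw [card_eq_card_quotient_mul_card_subgroup (N.subgroupOf (centralizer ({z} : Set G))),
    Nat.card_congr e.toEquiv, Nat.card_congr (subgroupOfEquivOfLe hNC).toEquiv, hN, hQ,
    Cfsg.Agent.H856.AutM22.card_aut]
  norm_num

theorem card_cent {G : Type*} [Group G] [Finite G] [IsSimpleGroup G] (hG : ¬ IsMulCommutative G) {z : G}
    (h : IsOfJankoFourTypeAt z) {t : G} (ht : orderOf t = 2) :
    Nat.card (centralizer ({t} : Set G)) = 21799895040 ∨ Nat.card (centralizer ({t} : Set G)) = 1816657920 := by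
  by_cases hzt : IsConj z t
  · left
    rw [← card_cent_z h]
    exact (Cfsg.Agent.H859.ClassEleven.card_centralizer_conj hzt).symm
  · right
    obtain ⟨V, K, hV, hK, hn, hea, hc, hi, hs, ⟨e⟩⟩ := Cfsg.Agent.S5569.result hG z h t ht hzt
    have hVn : (V.subgroupOf (centralizer ({t} : Set G))).Normal := by
      constructor
      intro x hx y
      rw [mem_subgroupOf] at hx ⊢
      exact ((mem_normalizer_iff.1 (hn y.2)) x).1 hx
    have hcomp : IsComplement' (V.subgroupOf (centralizer ({t} : Set G)))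
        (K.subgroupOf (centralizer ({t} : Set G))) := by
      apply isComplement'_of_disjoint_and_mul_eq_univ
      · rw [disjoint_iff, eq_bot_iff]
        rintro x ⟨h1, h2⟩
        rw [mem_bot]
        apply Subtype.ext
        have h3 : (x : G) ∈ K ⊓ V := ⟨h2, h1⟩
        rw [hi] at h3
        exact mem_bot.1 h3
      · rw [Set.eq_univ_iff_forall]
        rintro ⟨x, hx⟩
        have h3 : x ∈ K ⊔ V := by rw [hs]; exact hx
        have hKn : K ≤ normalizer (V : Set G) := hK.trans hn
        have h4 : x ∈ ((V ⊔ K : Subgroup G) : Set G) := by rw [sup_comm]; exact h3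
        rw [coe_mul_of_right_le_normalizer_left V K hKn] at h4
        obtain ⟨v, hv, k, hk, rfl⟩ := h4
        exact ⟨⟨v, hV hv⟩, hv, ⟨k, hK hk⟩, hk, rfl⟩
    have h5 := hcomp.card_mul
    rw [← h5, Nat.card_congr (subgroupOfEquivOfLe hV).toEquiv, Nat.card_congr (subgroupOfEquivOfLe hK).toEquiv, hc,
      Nat.card_congr e.toEquiv, Cfsg.Agent.H856.AutM22.card_aut]
    norm_num

/-! ### the facts on `J4` -/

theorem nonab : ¬ IsMulCommutative Spor.J4 := by
  intro hm
  have h1 : centralizer ({SylEleven.x} : Set Spor.J4) = ⊤ :=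
    eq_top_iff.2 fun g _ => mem_centralizer_singleton_iff.2 (hm.1.1 g SylEleven.x)
  have h2 := SylEleven.card_centralizer_x_eq
  rw [h1, Nat.card_congr Subgroup.topEquiv.toEquiv, Cfsg.Agent.S1703.result.2] at h2
  norm_num at h2

theorem eleven {t : Spor.J4} (ht : orderOf t = 2) : 11 ∣ Nat.card (centralizer ({t} : Set Spor.J4)) ∧
    ¬ 11 ^ 2 ∣ Nat.card (centralizer ({t} : Set Spor.J4)) := by
  have hsim : IsSimpleGroup Spor.J4 := Cfsg.Agent.S1703.result.1
  have : Finite Spor.J4 := SylEleven.finite_J4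
  obtain ⟨z, hz⟩ := Cfsg.Agent.H337.isOfJankoFourType_of_isoJ4 (G := Spor.J4) ⟨MulEquiv.refl _⟩
  rcases card_cent nonab hz ht with h | h <;> rw [h] <;> norm_num

theorem good_c : Good 11 NU.c := by
  refine ⟨NU.U, SylEleven.isPGroup_U, SylEleven.c_mem, fun g hg => CentC.centralizer_U_le ?_, ?_⟩
  · rw [mem_centralizer_iff]
    exact fun q hq => (hg q hq).symm
  · intro g hg q hq
    have h1 : g ∈ normalizer ((zpowers NU.c : Subgroup Spor.J4) : Set Spor.J4) := by
      have h2 : (zpowers NU.c).map (MulAut.conj g).toMonoidHom = zpowers NU.c := by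
        rw [MonoidHom.map_zpowers]
        show zpowers (g * NU.c * g⁻¹) = _
        rcases hg with hg | hg
        · rw [hg]
        · rw [hg, zpowers_inv]
      rw [mem_normalizer_iff_map_conj_eq]
      exact h2
    exact (mem_normalizer_iff.1 (CentC.normalizer_c_le h1) q).1 hq

theorem good_x : Good 11 SylEleven.x := by
  have := fact_eleven
  have : Finite Spor.J4 := SylEleven.finite_J4
  exact good_of_index_two (m := 2) (by norm_num) ClassEleven.orderOf_x
    (by rw [SylEleven.card_centralizer_x_eq]; norm_num) fun t ht => (eleven ht).2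

theorem hasQ : HasQ 11 (⊤ : Subgroup Spor.J4) := by
  have := fact_eleven
  have : Finite Spor.J4 := SylEleven.finite_J4
  refine hasQ_of_good fun w hw1 hw => ?_
  have hwo : orderOf w = 11 := by
    obtain ⟨g, hg⟩ := SylEleven.exists_conj_mem SylEleven.isPGroup_U SylEleven.not_dvd_U hw
    have h1 := Heis.pow_p NU.rel (by norm_num) hg
    rw [conj_pow] at h1
    have h2 : w ^ 11 = 1 := by
      calc w ^ 11 = g⁻¹ * (g * w ^ 11 * g⁻¹) * g := by group
        _ = 1 := by rw [h1]; group
    exact orderOf_eq_prime h2 hw1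
  rcases ClassEleven.isConj_or hwo with h | h
  · exact good_x.of_isConj h
  · exact good_c.of_isConj h

theorem noCent : NoCent 11 (⊤ : Subgroup Spor.J4) := by
  have := fact_eleven
  have : Finite Spor.J4 := SylEleven.finite_J4
  refine noCent_of (m := 2) ?_ fun t ht => (eleven ht).2
  rw [Cfsg.Agent.S1703.result.2]
  norm_num

/-- **S3010, the row `J4`.** -/
theorem dead : DeadS.{u} (fun K _ => Cfsg.Spor.IsoJ4 K) := by
  intro G _ _ V K h hK
  have := fact_eleven
  have : Finite Spor.J4 := SylEleven.finite_J4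
  obtain ⟨hfin, hsim, ⟨F⟩⟩ := KFacts.J4.Base.exists_full hK
  have hKt := eq_top_of_inner h (KFacts.J4.SheetJ4.inner F)
  obtain ⟨e⟩ := hK
  let e' : G ≃* Spor.J4 := (Subgroup.topEquiv.symm.trans (MulEquiv.subgroupCongr hKt.symm)).trans e
  exact false_of h e' (p := 11) (by norm_num) noCent hasQ fun t ht => (eleven ht).1

end Cfsg.Agent.H748.SK.J4
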